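import Cfsg.Agent.OD.Pre
import Cfsg.Agent.H3.QK0
import Cfsg.Agent.H2.Ab2a
/-! Real triples of elements of order three in the Fischer groups, the Thompson group and the monsters. -/
set_option autoImplicit false
open Subgroup Cfsg Cfsg.Spor CfH2 CfH3.QK
namespace CfH8.QS
section
variable {α : Type*} [DecidableEq α] {G : Type*} [Group G] {s : α → G} {lab : α → α → ℕ}

def grow (lab : α → α → ℕ) (V S : List α) : List α :=
  V.filter fun y => y ∈ S ∨ ∃ x ∈ S, lab x y = 3 ∧ ∃ x' ∈ S, lab x' y = 2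

theorem grow_eq (L : Lab s lab) (g : G) (V : List α) (n : ℕ) :
    ∀ S, (∀ x ∈ S, s x = g) → ∀ x ∈ (grow lab V)^[n] S, s x = g := by
  induction n with
  | zero => exact fun _ h => h
  | succ n ih =>
    refine fun S h => ih _ fun y hy => ?_
    rcases of_decide_eq_true (List.mem_filter.1 hy).2 with a | ⟨x, a, b, x', c, d⟩
    · exact h y a
    · exact (L.merge ((h x a).trans (h x' c).symm) y ⟨b, d⟩).trans (h x a)

theorem all_eq (L : Lab s lab) {V : List α} (hV : ∀ z, z ∈ V) {x y : α} (h : ∀ z ∈ V, z ∈ (grow lab V)^[8] [x, y])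
    (e : s y = s x) (z : α) : s z = s x :=
  grow_eq L _ V 8 _ (by simp [e]) z (h z (hV z))

theorem rt (L : Lab s lab) {V : List α} (hV : ∀ z, z ∈ V) (hn : ∀ x, ¬ ∀ z, s z = s x) (H : Subgroup G) (a b c d e f : α)
    (r : G) (hr : ∀ x ∈ [a, b, c, d, e, f], r * s x = s x * r)
    (h : (lab a b = 3 ∧ lab c d = 3 ∧ lab e f = 3) ∧ (∀ x ∈ [a, b], ∀ y ∈ [c, d, e, f], lab x y = 2) ∧
      (∀ x ∈ [c, d], ∀ y ∈ [e, f], lab x y = 2) ∧
      ∀ p ∈ [(a, b), (c, d), (e, f)], ∀ z ∈ V, z ∈ (grow lab V)^[8] [p.1, p.2])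
    (hm : ∀ p ∈ [(a, b), (c, d), (e, f)], s p.1 * s p.2 ∈ H ∧ s p.1 * r ∈ H) : RT 3 H := by
  obtain ⟨⟨h1, h2, h3⟩, h4, h5, h6⟩ := h
  simp only [List.forall_mem_cons] at hr h4 h5 hm
  obtain ⟨ra, rb, rc, rd, re, rf, -⟩ := hr
  obtain ⟨⟨ac, ad, ae, af, -⟩, ⟨bc, bd, be, bf, -⟩, -⟩ := h4
  obtain ⟨⟨ce, cf, -⟩, ⟨de, df, -⟩, -⟩ := h5
  obtain ⟨m1, m2, m3, -⟩ := hm
  have n : ∀ p ∈ [(a, b), (c, d), (e, f)], s p.1 * s p.2 ≠ 1 := fun p hp k => hn _ (all_eq L hV (h6 p hp)
    ((eq_inv_of_mul_eq_one_right k).trans (inv_eq_of_mul_eq_one_right (L.sq _))))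
  have C : ∀ {x y}, lab x y = 2 → Commute (s x) (s y) := fun h => L.cm h
  have i : ∀ {x y}, r * s x = s x * r → r * s y = s y * r → s x * r * (s x * s y) * (s x * r)⁻¹ = (s x * s y)⁻¹ :=
    fun {x y} k1 k2 => by
      rw [mul_assoc (s x), (Commute.mul_right k1 k2 : Commute r _).eq, ← mul_assoc, ← mul_assoc, L.sq, one_mul,
        mul_inv_rev, mul_inv_rev, ← mul_assoc, mul_inv_cancel_right, inv_eq_of_mul_eq_one_right (L.sq y)]
  have j : ∀ {x y z}, r * s y = s y * r → r * s z = s z * r → Commute (s x) (s y) → Commute (s x) (s z) →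
      s x * r * (s y * s z) * (s x * r)⁻¹ = s y * s z := fun k1 k2 k3 k4 => mul_inv_eq_iff_eq_mul.2
    ((k3.mul_right k4).mul_left (Commute.mul_right k1 k2 : Commute r _)).eq
  exact rt_of (x := ⟨_, m1.1⟩) (y := ⟨_, m2.1⟩) (z := ⟨_, m3.1⟩) (s := ⟨_, m1.2⟩) (t := ⟨_, m2.2⟩) (w := ⟨_, m3.2⟩)
    Nat.prime_three (by omega) (Subtype.ext (L.r h1)) (Subtype.ext (L.r h2)) (Subtype.ext (L.r h3))
    (fun k => n (a, b) (by simp) (congrArg Subtype.val k)) (fun k => n (c, d) (by simp) (congrArg Subtype.val k))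
    (fun k => n (e, f) (by simp) (congrArg Subtype.val k))
    (Subtype.ext (((C ac).mul_right (C ad)).mul_left ((C bc).mul_right (C bd))).eq)
    (Subtype.ext (((C ae).mul_right (C af)).mul_left ((C be).mul_right (C bf))).eq)
    (Subtype.ext (((C ce).mul_right (C cf)).mul_left ((C de).mul_right (C df))).eq)
    (Subtype.ext (i ra rb)) (Subtype.ext (j re rf (C ae) (C af))) (Subtype.ext (i rc rd))
    (Subtype.ext (j ra rb (C ac).symm (C bc).symm)) (Subtype.ext (j re rf (C ce) (C cf))) (Subtype.ext (i re rf))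
end

variable {K : Type*} [Group K] [Finite K]

theorem not_all {α : Type*} [DecidableEq α] {rels : Set (FreeGroup α)} {H : Subgroup (PresentedGroup rels)} (hK : ¬ IsMulCommutative K)
    (e : K ≃* H) (x : α) : ¬ ∀ z, (PresentedGroup.of z : PresentedGroup rels) = PresentedGroup.of x := fun h =>
  hK ⟨⟨fun a b => e.injective (by
    rw [map_mul, map_mul]
    exact Subtype.ext (comm_of_gens (PresentedGroup.of x) (fun z => h z ▸ mem_zpowers _) _ _))⟩⟩

theorem of_rt {G : Type*} [Group G] (e : K ≃* G) (h : RT 3 G) : T K :=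
  T.of_rt3 (h.map e.symm.toMonoidHom e.symm.injective)

theorem t_fi22 (hK : ¬ IsMulCommutative K) (h : IsoFi22 K) : T K := by
  obtain ⟨e⟩ := h
  have L := cox_lab (edges := Fi22.edges) (extra := Fi22.extra) (fun x => by cases x <;> decide)
  exact of_rt (e.trans topEquiv.symm) (rt L (V := [.a, .b, .c, .d, .e, .f, .g, .h, .i]) (fun x => by cases x <;> decide)
    (not_all hK (e.trans topEquiv.symm)) ⊤ .a .b .f .g .h .i 1 (by simp) (by decide +kernel) (by simp))

theorem t_fi23 (hK : ¬ IsMulCommutative K) (h : IsoFi23 K) : T K := by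
  obtain ⟨e⟩ := h
  have L := cox_lab (edges := Fi23.edges) (extra := Fi23.extra) (fun x => by cases x <;> decide)
  exact of_rt (e.trans topEquiv.symm) (rt L (V := [.a, .b, .c, .d, .e, .f, .g, .j, .h, .i]) (fun x => by cases x <;> decide)
    (not_all hK (e.trans topEquiv.symm)) ⊤ .a .b .f .g .h .i 1 (by simp) (by decide +kernel) (by simp))

theorem t_b (hK : ¬ IsMulCommutative K) (h : IsoB K) : T K := by
  obtain ⟨e⟩ := h
  have L := cox_lab (edges := BabyMonster.edges) (extra := BabyMonster.extra) (fun x => by cases x <;> decide)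
  exact of_rt (e.trans topEquiv.symm) (rt L (V := [.t1, .t2, .t3, .t4, .t5, .t6, .t7, .t8, .t9, .t10, .t11])
    (fun x => by cases x <;> decide) (not_all hK (e.trans topEquiv.symm)) ⊤ .t2 .t3 .t7 .t8 .t10 .t11 1 (by simp)
    (by decide +kernel) (by simp))

theorem t_fi24 (hK : ¬ IsMulCommutative K) (h : IsoFi24' K) : T K := by
  obtain ⟨e⟩ := h
  have L := cox_lab (edges := Fi24.edges) (extra := Fi24.extra) (fun x => by cases x <;> decide)
  have hV : ∀ x : Fi24.Gen, x ∈ [.l, .k, .a, .b, .c, .d, .e, .f, .g, .j, .h, .i] := fun x => by cases x <;> decide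
  have ev := L.even (all_eq (L.map Abelianization.of) hV (x := .a) (y := .b) (by decide +kernel) (L.ab (by decide)))
  exact of_rt e (rt L hV (not_all hK e) _ .a .b .f .g .h .i (PresentedGroup.of .l)
    (fun x hx => L.cm (by revert x; decide)) (by decide +kernel) fun p _ => ⟨ev _ _, ev _ _⟩)

theorem t_m (hK : ¬ IsMulCommutative K) (h : IsoM K) : T K := by
  obtain ⟨e⟩ := h
  have L := cox_lab (edges := Bimonster.edges) (extra := Bimonster.extra) (fun x => by cases x <;> decide)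
  have hV : ∀ x : Bimonster.Gen, x ∈ [.a, .b1, .c1, .d1, .e1, .f1, .b2, .c2, .d2, .e2, .f2, .b3, .c3, .d3, .e3, .f3] :=
    fun x => by cases x <;> decide
  have ev := L.even (all_eq (L.map Abelianization.of) hV (x := .a) (y := .b1) (by decide +kernel) (L.ab (by decide)))
  have ce : ∀ x, coxLabel Bimonster.edges x .a = 2 → (PresentedGroup.of x : Bimonster) ∈
      centralizer {(PresentedGroup.of .a : Bimonster)} := fun x hx => mem_centralizer_singleton_iff.2 (L.cm hx)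
  exact of_rt e (rt L hV (not_all hK e) _ .c1 .d1 .c2 .d2 .c3 .d3 (PresentedGroup.of .f1)
    (fun x hx => L.cm (by revert x; decide)) (by decide +kernel) fun p hp =>
      have k : coxLabel Bimonster.edges p.1 .a = 2 ∧ coxLabel Bimonster.edges p.2 .a = 2 := by revert p; decide
      ⟨⟨mul_mem (ce _ k.1) (ce _ k.2), ev _ _⟩, mul_mem (ce _ k.1) (ce _ (by decide)), ev _ _⟩)

theorem t_th (hK : ¬ IsMulCommutative K) (h : IsoTh K) : T K := by
  obtain ⟨φ⟩ := h
  set s : Th.Gen → Th := fun x => PresentedGroup.of x with hs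
  have R : ∀ i (hi : i < Th.extra.length), PresentedGroup.mk (coxRelators Th.edges ∪ {r | r ∈ Th.extra}) (Th.extra[i]) = 1 :=
    fun i hi => extra_rel (List.getElem_mem hi)
  have a2 : s .a ^ 2 = 1 := R 0 (by decide)
  have b2 : s .b ^ 2 = 1 := R 1 (by decide)
  have c2 : s .c ^ 2 = 1 := R 2 (by decide)
  have d2 : s .d ^ 2 = 1 := R 3 (by decide)
  have e2 : s .e ^ 2 = 1 := R 4 (by decide)
  have ab : (s .a * s .b) ^ 3 = 1 := R 5 (by decide)
  have ae : (s .a * s .e) ^ 2 = 1 := R 6 (by decide)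
  have bc : (s .b * s .c) ^ 3 = 1 := R 7 (by decide)
  have bd : (s .b * s .d) ^ 2 = 1 := R 8 (by decide)
  have be : (s .b * s .e) ^ 2 = 1 := R 9 (by decide)
  have acd : s .a * ((s .c * s .d) ^ 4)⁻¹ = 1 := R 10 (by decide)
  have ce : (s .c * s .e) ^ 2 = 1 := R 11 (by decide)
  have de : (s .d * s .e) ^ 3 = 1 := R 12 (by decide)
  have s7 : s .s ^ 7 = 1 := R 14 (by decide)
  have sd : (s .s * s .d) ^ 2 = 1 := R 18 (by decide)
  have es : (s .e)⁻¹ * (s .s)⁻¹ * s .e * s .s * ((s .s ^ 3)⁻¹ * s .e * s .s ^ 3)⁻¹ = 1 := R 19 (by decide)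
  have t3 : s .t ^ 3 = 1 := R 20 (by decide)
  have ta : (s .t)⁻¹ * (s .a)⁻¹ * s .t * s .a = 1 := R 21 (by decide)
  have tb : (s .t)⁻¹ * (s .b)⁻¹ * s .t * s .b = 1 := R 22 (by decide)
  have td : (s .t)⁻¹ * (s .d)⁻¹ * s .t * s .d = 1 := R 24 (by decide)
  have te : (s .t)⁻¹ * (s .e)⁻¹ * s .t * s .e = 1 := R 25 (by decide)
  have st : (s .t)⁻¹ * s .s * s .t * (s .s ^ 2)⁻¹ = 1 := R 26 (by decide)
  have u2 : s .u ^ 2 * (s .a * s .c)⁻¹ = 1 := R 27 (by decide)
  have ue : (s .u)⁻¹ * ((s .b)⁻¹ * (s .a * s .c) * s .b)⁻¹ * s .u * ((s .b)⁻¹ * (s .a * s .c) * s .b) * (s .e)⁻¹ = 1 :=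
    R 32 (by decide)
  have tu : (s .u)⁻¹ * s .t * s .u * ((s .t)⁻¹)⁻¹ = 1 := R 34 (by decide)
  have us : s .a * s .c * ((s .u * s .s) ^ 3)⁻¹ = 1 := R 36 (by decide)
  rw [pow_two] at a2 b2 c2 d2 e2
  rw [mul_inv_eq_one] at acd tu
  have E : s .e ≠ 1 := fun e => by
    have d : s .d = 1 := one_of_odd d2 1 (by rwa [e, mul_one] at de)
    have a : s .a = 1 := by rw [acd, d, mul_one, show 4 = 2 * 2 from rfl, pow_mul, pow_two (s _), c2, one_pow]
    have b : s .b = 1 := one_of_odd b2 1 (by rwa [a, one_mul] at ab)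
    have c : s .c = 1 := one_of_odd c2 1 (by rwa [b, one_mul] at bc)
    have ss : s .s = 1 := one_of_odd (by rwa [d, mul_one, pow_two] at sd) 3 s7
    have u : s .u = 1 := one_of_odd (by simpa [a, c, pow_two] using u2) 1 (by simpa [a, c, ss] using us)
    have t : s .t = 1 := one_of_odd (by simpa [u, eq_inv_iff_mul_eq_one] using tu) 1 t3
    refine not_all hK (φ.trans topEquiv.symm) .e fun x => ?_
    change s x = s .e
    cases x <;> simp only [a, b, c, d, e, ss, t, u]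
  have ai : (s .a)⁻¹ = s .a := inv_eq_of_mul_eq_one_right a2
  have ci : (s .c)⁻¹ = s .c := inv_eq_of_mul_eq_one_right c2
  have di : (s .d)⁻¹ = s .d := inv_eq_of_mul_eq_one_right d2
  have ad : Commute (s .a) (s .d) := (mul_inv_eq_iff_eq_mul.1 (by
    have : s .d * (s .c * s .d) * (s .d)⁻¹ = (s .c * s .d)⁻¹ := by rw [mul_inv_rev, ci, di]; simp [mul_assoc, d2]
    rw [acd, ← conj_pow, this, inv_pow, ← acd, ai])).symm
  have ac : Commute (s .a) (s .c) := (mul_inv_eq_iff_eq_mul.1 (by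
    have : s .c * (s .c * s .d) * (s .c)⁻¹ = (s .c * s .d)⁻¹ := by rw [mul_inv_rev, ci, di, ← mul_assoc, c2, one_mul]
    rw [acd, ← conj_pow, this, inv_pow, ← acd, ai])).symm
  have K : ∀ {x y : Th}, x⁻¹ * y⁻¹ * x * y = 1 → Commute y x := fun {x y} h => by
    rw [mul_assoc, ← mul_inv_rev, inv_mul_eq_one] at h; exact h
  have AE : Commute (s .a) (s .e) := comm_of_sq a2 e2 ae
  have BD : Commute (s .b) (s .d) := comm_of_sq b2 d2 bd
  have BE : Commute (s .b) (s .e) := comm_of_sq b2 e2 be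
  refine of_rt φ (rt_of (x := s .a * s .b) (y := s .d * s .e) (z := s .t) (s := s .a) (t := s .d) (w := (s .u)⁻¹)
    Nat.prime_three (by omega) ab de t3 (fun h => E ?_) (fun h => E ?_) (fun h => E ?_)
    ((ad.mul_right AE).mul_left (BD.mul_right BE)).eq ((K ta).mul_left (K tb)).eq ((K td).mul_left (K te)).eq
    (by rw [← mul_assoc, a2, one_mul, mul_inv_rev, inv_eq_of_mul_eq_one_right b2]) (mul_inv_eq_iff_eq_mul.2 (K ta).eq)
    (by rw [← mul_assoc, d2, one_mul, mul_inv_rev, inv_eq_of_mul_eq_one_right e2])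
    (mul_inv_eq_iff_eq_mul.2 (ad.symm.mul_right BD.symm).eq) (mul_inv_eq_iff_eq_mul.2 (K td).eq) (by rw [inv_inv, tu]))
  · have b : s .b = s .a := (eq_inv_of_mul_eq_one_right h).trans ai
    have : s .a * s .c = 1 := one_of_odd (by rw [← pow_two, ac.mul_pow, pow_two, pow_two, a2, c2, mul_one]) 1 (by rwa [b] at bc)
    simpa [this] using ue
  · have e : s .e = s .d := (eq_inv_of_mul_eq_one_right h).trans di
    have a : s .a = 1 := by rw [acd, ← e, show 4 = 2 * 2 from rfl, pow_mul, ce, one_pow]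
    have b : s .b = 1 := one_of_odd b2 1 (by rwa [a, one_mul] at ab)
    have c : s .c = 1 := one_of_odd c2 1 (by rwa [b, one_mul] at bc)
    simpa [a, b, c] using ue
  · have : s .s = 1 := by simpa [h, pow_two] using st
    simpa [this] using es
end CfH8.QS
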